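import Cfsg.Agent.H471.KPiCrit
import Cfsg.Prelude.Def_OddOrderLocal

/-!
`k_π(G) / |G|_π ≤ k_σ(G) / |G|_σ` for `σ ⊆ π`, and assembling a normal `π`-complement and an abelian
Hall `π`-subgroup from the normal `q`-complements, `q ∈ π`.
-/

set_option autoImplicit false

open scoped Pointwise commutatorElement

namespace Cfsg.Agent.H471.KPi

open Cfsg.Agent.H529.PiElem

variable {G : Type*} [Group G]

theorem kPi_union_le [Finite G] (σ τ : Finset ℕ) (hτ : ∀ r ∈ τ, r.Prime) (hd : Disjoint σ τ) :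
    kPi (↑(σ ∪ τ) : Set ℕ) G ≤ τ.prod (fun r => r ^ (Nat.card G).factorization r) * kPi (↑σ : Set ℕ) G := by
  classical
  induction τ using Finset.induction_on with
  | empty => simp
  | insert r τ hr ih =>
    have hrp : Fact r.Prime := ⟨hτ r (Finset.mem_insert_self _ _)⟩
    have h1 := ih (fun x hx => hτ x (Finset.mem_insert_of_mem hx))
      (Finset.disjoint_of_subset_right (Finset.subset_insert _ _) hd)
    have hrσ : r ∉ σ := fun h => Finset.disjoint_left.1 hd h (Finset.mem_insert_self _ _)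
    have h2 : σ ∪ insert r τ = insert r (σ ∪ τ) := Finset.union_insert _ _ _
    rw [h2, Finset.coe_insert, Finset.prod_insert hr, mul_assoc]
    refine (kPi_insert_le (μ := (↑(σ ∪ τ) : Set ℕ)) (r := r) ?_).trans (Nat.mul_le_mul_left _ h1)
    rw [Finset.mem_coe, Finset.mem_union, not_or]
    exact ⟨hrσ, hr⟩

/-- passing to a subset of the primes -/
theorem kPi_subset_le [Finite G] {σ π : Finset ℕ} (hσ : σ ⊆ π) (hπ : ∀ r ∈ π, r.Prime) :
    kPi (↑π : Set ℕ) G * σ.prod (fun r => r ^ (Nat.card G).factorization r) ≤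
      kPi (↑σ : Set ℕ) G * π.prod (fun r => r ^ (Nat.card G).factorization r) := by
  classical
  have h1 := kPi_union_le (G := G) σ (π \ σ) (fun r hr => hπ r (Finset.mem_sdiff.1 hr).1)
    Finset.disjoint_sdiff
  rw [Finset.union_sdiff_of_subset hσ] at h1
  have h2 := Finset.prod_sdiff hσ (f := fun r => r ^ (Nat.card G).factorization r)
  rw [← h2]
  calc kPi (↑π : Set ℕ) G * σ.prod (fun r => r ^ (Nat.card G).factorization r)
      ≤ ((π \ σ).prod (fun r => r ^ (Nat.card G).factorization r) * kPi (↑σ : Set ℕ) G) *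
        σ.prod (fun r => r ^ (Nat.card G).factorization r) := Nat.mul_le_mul_right _ h1
    _ = _ := by ring

/-- the data of a normal `q`-complement for each `q ∈ π` give a normal `π`-complement -/
theorem exists_normal_piComplement [Finite G] (π : Finset ℕ) (hπ : ∀ r ∈ π, r.Prime)
    (N : ℕ → Subgroup G) (hN : ∀ q ∈ π, (N q).Normal ∧ ¬ q ∣ Nat.card (N q) ∧ ∃ k, (N q).index = q ^ k) :
    (⨅ q ∈ π, N q).Normal ∧ (∀ r : ℕ, r.Prime → r ∣ Nat.card ↥(⨅ q ∈ π, N q) → r ∉ π) ∧
      ∀ r : ℕ, r.Prime → r ∣ (⨅ q ∈ π, N q).index → r ∈ π := by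
  classical
  refine ⟨?_, ?_, ?_⟩
  · refine ⟨fun n hn g => ?_⟩
    simp only [Subgroup.mem_iInf] at hn ⊢
    intro q hq
    exact (hN q hq).1.conj_mem n (hn q hq) g
  · intro r _ hrd hr
    apply (hN r hr).2.1
    exact hrd.trans (Subgroup.card_dvd_of_le (iInf₂_le r hr))
  · induction π using Finset.induction_on with
    | empty =>
      intro r hr hrd
      simp at hrd
      exact absurd hrd hr.one_lt.ne'
    | insert s π hs ih =>
      intro r hr hrd
      rw [Finset.iInf_insert] at hrd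
      have hsn := (hN s (Finset.mem_insert_self _ _)).1
      have h1 : (N s ⊓ ⨅ q ∈ π, N q).index = (N s).relIndex (⨅ q ∈ π, N q) * (⨅ q ∈ π, N q).index := by
        rw [← Subgroup.relIndex_mul_index (inf_le_right : N s ⊓ (⨅ q ∈ π, N q) ≤ ⨅ q ∈ π, N q),
          Subgroup.inf_relIndex_right]
      rw [h1, hr.dvd_mul] at hrd
      rcases hrd with h2 | h2
      · obtain ⟨k, hk⟩ := (hN s (Finset.mem_insert_self _ _)).2.2
        have h3 := h2.trans (Subgroup.relIndex_dvd_index_of_normal (N s) (⨅ q ∈ π, N q))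
        rw [hk] at h3
        have h4 := (Nat.prime_dvd_prime_iff_eq hr (hπ s (Finset.mem_insert_self _ _))).1
          (hr.dvd_of_dvd_pow h3)
        rw [h4]
        exact Finset.mem_insert_self _ _
      · exact Finset.mem_insert_of_mem (ih (fun q hq => hπ q (Finset.mem_insert_of_mem hq))
          (fun q hq => hN q (Finset.mem_insert_of_mem hq)) r hr h2)

/-- with abelian quotients one also gets an abelian Hall `π`-subgroup -/
theorem exists_abelian_hall [Finite G] (π : Finset ℕ) (hπ : ∀ r ∈ π, r.Prime)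
    (N : ℕ → Subgroup G) (hN : ∀ q ∈ π, (N q).Normal ∧ ¬ q ∣ Nat.card (N q) ∧ ∃ k, (N q).index = q ^ k)
    (hab : ∀ q ∈ π, commutator G ≤ N q) :
    ∃ H : Subgroup G, Cfsg.IsPiHall (↑π : Set ℕ) H ∧ IsMulCommutative ↥H := by
  obtain ⟨h1, h2, h3⟩ := exists_normal_piComplement π hπ N hN
  set M : Subgroup G := ⨅ q ∈ π, N q with hM
  have hcop : Nat.Coprime (Nat.card M) M.index := by
    rw [Nat.coprime_iff_gcd_eq_one]
    by_contra hne
    obtain ⟨r, hr, hrd⟩ := Nat.exists_prime_and_dvd hne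
    exact h2 r hr (hrd.trans (Nat.gcd_dvd_left _ _)) (h3 r hr (hrd.trans (Nat.gcd_dvd_right _ _)))
  obtain ⟨H, hH⟩ := Subgroup.exists_right_complement'_of_coprime hcop
  refine ⟨H, ⟨?_, ?_⟩, ?_⟩
  · intro r hr hrd
    rw [← hH.symm.index_eq_card] at hrd
    exact h3 r hr hrd
  · intro r hr hrπ hrd
    rw [hH.index_eq_card] at hrd
    exact h2 r hr hrd hrπ
  · refine ⟨⟨fun x y => ?_⟩⟩
    have hc : ⁅(x : G), (y : G)⁆ ∈ M ⊓ H := by
      refine Subgroup.mem_inf.2 ⟨?_, ?_⟩
      · have h4 : commutator G ≤ M := le_iInf₂ hab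
        exact h4 (Subgroup.commutator_mem_commutator (Subgroup.mem_top _) (Subgroup.mem_top _))
      · rw [commutatorElement_def]
        exact H.mul_mem (H.mul_mem (H.mul_mem x.2 y.2) (H.inv_mem x.2)) (H.inv_mem y.2)
    rw [hH.disjoint.eq_bot, Subgroup.mem_bot, commutatorElement_eq_one_iff_mul_comm] at hc
    exact Subtype.ext hc

/-- the quotient by a normal complement of an abelian subgroup is abelian -/
theorem commutator_le_of_complement {N P : Subgroup G} (hN : N.Normal) (hc : N.IsComplement' P)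
    (hab : IsMulCommutative ↥P) : commutator G ≤ N := by
  rw [commutator_def, Subgroup.commutator_le]
  rintro a - b -
  have hex : ∀ g : G, ∃ x : ↥P, ((g : G) : G ⧸ N) = ((x : G) : G ⧸ N) := by
    intro g
    obtain ⟨⟨n, x⟩, hnx, -⟩ := hc.existsUnique g
    refine ⟨x, ?_⟩
    have hnx' : (n : G) * (x : G) = g := hnx
    rw [← hnx', QuotientGroup.mk_mul, (QuotientGroup.eq_one_iff (n : G)).2 n.2, one_mul]
  obtain ⟨x, hx⟩ := hex a
  obtain ⟨y, hy⟩ := hex b
  rw [← QuotientGroup.eq_one_iff, commutatorElement_def, QuotientGroup.mk_mul, QuotientGroup.mk_mul,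
    QuotientGroup.mk_mul, QuotientGroup.mk_inv, QuotientGroup.mk_inv, hx, hy, ← QuotientGroup.mk_mul]
  have h1 : ((x : G) * (y : G) : G) = (y : G) * (x : G) := congrArg Subtype.val (hab.is_comm.comm x y)
  rw [h1, QuotientGroup.mk_mul]
  group

/-- `S3897` in the form used for the assembly -/
theorem complement_data [Finite G] {p : ℕ} [hp : Fact p.Prime] (hp2 : p ≠ 2)
    (h : (p + 1) * p ^ (Nat.card G).factorization p < 2 * p * kPi {p} G) :
    ∃ N : Subgroup G, (N.Normal ∧ ¬ p ∣ Nat.card N ∧ ∃ k, N.index = p ^ k) ∧ commutator G ≤ N := by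
  obtain ⟨P⟩ : Nonempty (Sylow p G) := inferInstance
  rw [← P.card_eq_multiplicity] at h
  obtain ⟨⟨N, hN, hc⟩, hab⟩ := complement_of_large hp2 P h
  refine ⟨N, ⟨hN, ?_, ?_⟩, commutator_le_of_complement hN hc hab⟩
  · rw [← hc.index_eq_card]
    exact P.not_dvd_index
  · rw [hc.symm.index_eq_card, P.card_eq_multiplicity]
    exact ⟨_, rfl⟩

end Cfsg.Agent.H471.KPi
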