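import Cfsg.Agent.H471.KPi

/-!
Bounds for `k_p(G)`: nonabelian Sylow subgroup, nontrivial action of the normalizer, and the
resulting criterion for `k_p(G) > (p + 1)|P| / (2p)`, `p` odd.
-/

set_option autoImplicit false

open scoped Pointwise

namespace Cfsg.Agent.H471.KPi

open Cfsg.Agent.H529.PiElem

variable {G : Type*} [Group G]

theorem exists_conj_mem [Finite G] {p : ℕ} [hp : Fact p.Prime] (P : Sylow p G) (v : G)
    (hv : IsPiEl {p} v) : ∃ x ∈ (P : Subgroup G), IsConj x v := by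
  obtain ⟨k, hk⟩ := (isPiEl_singleton_iff hp.out).1 hv
  have hpg : IsPGroup p (Subgroup.zpowers v) := by
    apply IsPGroup.of_card (n := k)
    rw [Nat.card_zpowers, hk]
  obtain ⟨R, hR⟩ := hpg.exists_le_sylow
  obtain ⟨t, ht⟩ := MulAction.exists_smul_eq G R P
  have hgR : v ∈ (R : Subgroup G) := hR (Subgroup.mem_zpowers v)
  have h1 : MulAut.conj t v ∈ MulAut.conj t • (R : Subgroup G) :=
    Subgroup.smul_mem_pointwise_smul _ _ _ hgR
  have h2 : MulAut.conj t v ∈ (P : Subgroup G) := by rw [← ht]; exact h1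
  exact ⟨_, h2, (isConj_iff.2 ⟨t, rfl⟩ : IsConj v _).symm⟩

theorem card_conj_eq_index [Finite G] (x : G) :
    (Subgroup.centralizer ({x} : Set G)).index = Nat.card (ConjClasses.mk x).carrier := by
  rw [Subgroup.centralizer_eq_comap_stabilizer]
  refine (Subgroup.index_comap_of_surjective (MulAction.stabilizer (ConjAct G) x)
    (f := (ConjAct.toConjAct (G := G)).toMonoidHom) (MulEquiv.surjective _)).trans ?_
  rw [MulAction.index_stabilizer, ConjAct.orbit_eq_carrier_conjClasses]
  rfl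

/-- in a `p`-subgroup, non-central elements have at least `p` conjugates -/
theorem fib_center [Finite G] {p : ℕ} [hp : Fact p.Prime] (P : Subgroup G) (hP : IsPGroup p P)
    {x : G} (hx : x ∈ P) (hxD : x ∉ (Subgroup.center P).map P.subtype) :
    p ≤ Nat.card {y : G // y ∈ P ∧ IsConj y x} := by
  have h1 : (⟨x, hx⟩ : P) ∉ Subgroup.center P := fun h => hxD (Subgroup.mem_map.2 ⟨_, h, rfl⟩)
  obtain ⟨k, hk⟩ := hP.index (Subgroup.centralizer ({(⟨x, hx⟩ : P)} : Set P))
  have hk0 : k ≠ 0 := by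
    rintro rfl
    apply h1
    rw [pow_zero, Subgroup.index_eq_one] at hk
    rw [Subgroup.mem_center_iff]
    intro g
    have : g ∈ Subgroup.centralizer ({(⟨x, hx⟩ : P)} : Set P) := by rw [hk]; exact Subgroup.mem_top _
    exact Subgroup.mem_centralizer_singleton_iff.1 this
  have h2 : p ≤ Nat.card (ConjClasses.mk (⟨x, hx⟩ : P)).carrier := by
    rw [← card_conj_eq_index, hk]
    exact Nat.le_self_pow hk0 p
  refine h2.trans ?_
  let f : (ConjClasses.mk (⟨x, hx⟩ : P)).carrier → {y : G // y ∈ P ∧ IsConj y x} :=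
    fun y => ⟨(y.1 : G), y.1.2, by
      have h3 := ConjClasses.mem_carrier_iff_mk_eq.1 y.2
      rw [ConjClasses.mk_eq_mk_iff_isConj] at h3
      exact P.subtype.map_isConj h3⟩
  apply Nat.card_le_card_of_injective f
  intro a b hab
  have h4 : ((a.1 : P) : G) = ((b.1 : P) : G) :=
    congrArg (fun z : {y : G // y ∈ P ∧ IsConj y x} => (z : G)) hab
  exact Subtype.ext (Subtype.ext h4)

/-- elements moved by `n` have at least two conjugates -/
theorem fib_two [Finite G] (P : Subgroup G) {n : G} (hn : n ∈ Subgroup.normalizer (P : Set G))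
    {x : G} (hx : x ∈ P) (hxD : x ∉ Subgroup.centralizer ({n} : Set G)) :
    2 ≤ Nat.card {y : G // y ∈ P ∧ IsConj y x} := by
  classical
  have hne : x ≠ n * x * n⁻¹ := by
    intro h
    apply hxD
    rw [Subgroup.mem_centralizer_singleton_iff]
    calc x * n = (n * x * n⁻¹) * n := by rw [← h]
      _ = n * x := by group
  have hmem : n * x * n⁻¹ ∈ P := (Subgroup.mem_normalizer_iff.1 hn x).1 hx
  let f : Bool → {y : G // y ∈ P ∧ IsConj y x} := fun b =>
    if b then ⟨x, hx, IsConj.refl x⟩ else ⟨n * x * n⁻¹, hmem, (isConj_iff.2 ⟨n, rfl⟩ : IsConj x _).symm⟩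
  have hf : Function.Injective f := by
    intro a b hab
    rcases a with _ | _ <;> rcases b with _ | _
    · rfl
    · exact absurd (congrArg Subtype.val hab).symm hne
    · exact absurd (congrArg Subtype.val hab) hne
    · rfl
  have := Nat.card_le_card_of_injective f hf
  simpa using this

/-- elements moved by `n`, `n ^ r` centralizing `P`, have at least `r` conjugates -/
theorem fib_prime [Finite G] (P : Subgroup G) {n : G} (hn : n ∈ Subgroup.normalizer (P : Set G))
    {r : ℕ} (hr : r.Prime) (hnr : n ^ r ∈ Subgroup.centralizer (P : Set G))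
    {x : G} (hx : x ∈ P) (hxD : x ∉ Subgroup.centralizer ({n} : Set G)) :
    r ≤ Nat.card {y : G // y ∈ P ∧ IsConj y x} := by
  classical
  have hmem : ∀ i : ℕ, n ^ i * x * (n ^ i)⁻¹ ∈ P := fun i =>
    (Subgroup.mem_normalizer_iff.1 (pow_mem hn i) x).1 hx
  let f : Fin r → {y : G // y ∈ P ∧ IsConj y x} := fun i =>
    ⟨n ^ (i : ℕ) * x * (n ^ (i : ℕ))⁻¹, hmem i, (isConj_iff.2 ⟨n ^ (i : ℕ), rfl⟩ : IsConj x _).symm⟩
  have key : ∀ i j : ℕ, i < j → j < r → n ^ i * x * (n ^ i)⁻¹ ≠ n ^ j * x * (n ^ j)⁻¹ := by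
    intro i j hij hjr h
    apply hxD
    obtain ⟨d, rfl⟩ := Nat.exists_eq_add_of_lt hij
    have hc : Commute (n ^ (d + 1)) x := by
      have h1 : n ^ (i + d + 1) = n ^ i * n ^ (d + 1) := by rw [← pow_add]; congr 1
      rw [h1] at h
      have h2 : x = n ^ (d + 1) * x * (n ^ (d + 1))⁻¹ := by
        calc x = (n ^ i)⁻¹ * (n ^ i * x * (n ^ i)⁻¹) * n ^ i := by group
          _ = (n ^ i)⁻¹ * (n ^ i * n ^ (d + 1) * x * (n ^ i * n ^ (d + 1))⁻¹) * n ^ i := by rw [h]
          _ = n ^ (d + 1) * x * (n ^ (d + 1))⁻¹ := by rw [mul_inv_rev]; group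
      change n ^ (d + 1) * x = x * n ^ (d + 1)
      calc n ^ (d + 1) * x = (n ^ (d + 1) * x * (n ^ (d + 1))⁻¹) * n ^ (d + 1) := by group
        _ = x * n ^ (d + 1) := by rw [← h2]
    have hc2 : Commute (n ^ r) x := (Subgroup.mem_centralizer_iff.1 hnr x hx).symm
    have hcop : Nat.Coprime (d + 1) r := by
      apply Nat.Coprime.symm
      rw [Nat.Prime.coprime_iff_not_dvd hr]
      exact Nat.not_dvd_of_pos_of_lt (by omega) (by omega)
    have hbez := Nat.gcd_eq_gcd_ab (d + 1) r
    rw [Nat.coprime_iff_gcd_eq_one.1 hcop] at hbez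
    have hn1 : n = (n ^ (d + 1)) ^ (Nat.gcdA (d + 1) r) * (n ^ r) ^ (Nat.gcdB (d + 1) r) := by
      rw [← zpow_natCast, ← zpow_natCast, ← zpow_mul, ← zpow_mul, ← zpow_add, ← hbez]
      simp
    have hc3 : Commute n x := by
      rw [hn1]
      exact (hc.zpow_left _).mul_left (hc2.zpow_left _)
    rw [Subgroup.mem_centralizer_singleton_iff]
    exact hc3.symm.eq
  have hf : Function.Injective f := by
    intro i j hij
    have h := congrArg Subtype.val hij
    rcases lt_trichotomy (i : ℕ) j with h1 | h1 | h1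
    · exact absurd h (key i j h1 j.2)
    · exact Fin.ext h1
    · exact absurd h.symm (key j i h1 i.2)
  have := Nat.card_le_card_of_injective f hf
  simpa using this

/-- a proper subgroup of a `p`-group -/
theorem mul_card_le_of_lt [Finite G] {p : ℕ} [hp : Fact p.Prime] {D P : Subgroup G}
    (hP : IsPGroup p P) (hDP : D ≤ P) (hne : ¬ P ≤ D) : p * Nat.card D ≤ Nat.card P := by
  have h1 := (D.subgroupOf P).index_mul_card
  obtain ⟨k, hk⟩ := hP.index (D.subgroupOf P)
  have hk0 : k ≠ 0 := by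
    rintro rfl
    apply hne
    rw [pow_zero, Subgroup.index_eq_one, Subgroup.subgroupOf_eq_top] at hk
    exact hk
  rw [hk, Nat.card_congr (Subgroup.subgroupOfEquivOfLe hDP).toEquiv] at h1
  rw [← h1]
  exact Nat.mul_le_mul_right _ (Nat.le_self_pow hk0 p)

/-- `p ^ 2 |Z(P)| ≤ |P|` for nonabelian `P` -/
theorem sq_mul_card_center_le {p : ℕ} [hp : Fact p.Prime] {P : Type*} [Group P] [Finite P]
    (hP : IsPGroup p P) (hna : ¬ IsMulCommutative P) :
    p ^ 2 * Nat.card (Subgroup.center P) ≤ Nat.card P := by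
  obtain ⟨k, hk⟩ := hP.index (Subgroup.center P)
  have h1 := (Subgroup.center P).index_mul_card
  have hk2 : 2 ≤ k := by
    by_contra hcon
    apply hna
    have hcyc : IsCyclic (P ⧸ Subgroup.center P) := by
      rcases Nat.lt_or_ge k 1 with h | h
      · have hk0 : k = 0 := by omega
        rw [hk0, pow_zero, Subgroup.index_eq_card] at hk
        have : Subsingleton (P ⧸ Subgroup.center P) := (Nat.card_eq_one_iff_unique.1 hk).1
        infer_instance
      · have hk1 : k = 1 := by omega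
        rw [hk1, pow_one, Subgroup.index_eq_card] at hk
        exact isCyclic_of_prime_card hk
    exact MonoidHom.isMulCommutative_of_isCyclic_of_ker_le_center
      (QuotientGroup.mk' (Subgroup.center P)) (by rw [QuotientGroup.ker_mk'])
  rw [← h1, hk]
  exact Nat.mul_le_mul_right _ (Nat.pow_le_pow_right hp.out.pos hk2)

/-- nonabelian Sylow subgroups: `p³ k_p(G) ≤ (p² + p - 1)|P|` -/
theorem kPi_nonabelian [Finite G] {p : ℕ} [hp : Fact p.Prime] (π : Set ℕ) (P : Subgroup G)
    (hPp : IsPGroup p P) (hP : ∀ v : G, IsPiEl π v → ∃ x ∈ P, IsConj x v)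
    (hna : ¬ IsMulCommutative P) :
    p ^ 3 * kPi π G ≤ (p ^ 2 + p - 1) * Nat.card P := by
  have hp1 := hp.out.two_le
  have h1 := kPi_le_of_fib π P ((Subgroup.center P).map P.subtype) (Subgroup.map_subtype_le _) hP p
    hp.out.pos (fun x hx hxD => fib_center P hPp hx hxD)
  have h2 := sq_mul_card_center_le hPp hna
  have h3 : Nat.card ((Subgroup.center P).map P.subtype) = Nat.card (Subgroup.center P) :=
    (Nat.card_congr ((Subgroup.center P).equivMapOfInjective _ P.subtype_injective).toEquiv).symm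
  rw [h3] at h1
  obtain ⟨q, rfl⟩ : ∃ q, p = q + 1 := ⟨p - 1, by omega⟩
  simp only [Nat.add_sub_cancel] at h1 ⊢
  have h4 : (q + 1) ^ 2 + (q + 1) - 1 = (q + 1) ^ 2 + q := by omega
  rw [h4]
  calc (q + 1) ^ 3 * kPi π G = (q + 1) ^ 2 * ((q + 1) * kPi π G) := by ring
    _ ≤ (q + 1) ^ 2 * (Nat.card P + q * Nat.card (Subgroup.center P)) := Nat.mul_le_mul_left _ h1
    _ = (q + 1) ^ 2 * Nat.card P + q * ((q + 1) ^ 2 * Nat.card (Subgroup.center P)) := by ring
    _ ≤ (q + 1) ^ 2 * Nat.card P + q * Nat.card P := Nat.add_le_add_left (Nat.mul_le_mul_left _ h2) _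
    _ = ((q + 1) ^ 2 + q) * Nat.card P := by ring

/-- a normalizing element acting nontrivially: `2 p k_p(G) ≤ (p + 1)|P|` -/
theorem kPi_action_two [Finite G] {p : ℕ} [hp : Fact p.Prime] (π : Set ℕ) (P : Subgroup G)
    (hPp : IsPGroup p P) (hP : ∀ v : G, IsPiEl π v → ∃ x ∈ P, IsConj x v)
    {n : G} (hn : n ∈ Subgroup.normalizer (P : Set G)) (hnc : n ∉ Subgroup.centralizer (P : Set G)) :
    2 * p * kPi π G ≤ (p + 1) * Nat.card P := by
  have h1 := kPi_le_of_fib π P (P ⊓ Subgroup.centralizer ({n} : Set G)) inf_le_left hP 2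
    (by norm_num) (fun x hx hxD => fib_two P hn hx (fun h => hxD ⟨hx, h⟩))
  have h2 : p * Nat.card ↥(P ⊓ Subgroup.centralizer ({n} : Set G)) ≤ Nat.card P := by
    apply mul_card_le_of_lt hPp inf_le_left
    intro h
    apply hnc
    rw [Subgroup.mem_centralizer_iff]
    intro x hx
    exact Subgroup.mem_centralizer_singleton_iff.1 (h hx).2
  calc 2 * p * kPi π G = p * (2 * kPi π G) := by ring
    _ ≤ p * (Nat.card P + (2 - 1) * Nat.card ↥(P ⊓ Subgroup.centralizer ({n} : Set G))) :=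
        Nat.mul_le_mul_left _ h1
    _ = p * Nat.card P + p * Nat.card ↥(P ⊓ Subgroup.centralizer ({n} : Set G)) := by ring
    _ ≤ p * Nat.card P + Nat.card P := Nat.add_le_add_left h2 _
    _ = (p + 1) * Nat.card P := by ring

/-- a normalizing element acting with prime order `r`: `r p k_p(G) ≤ (p + r - 1)|P|` -/
theorem kPi_action_prime [Finite G] {p : ℕ} [hp : Fact p.Prime] (π : Set ℕ) (P : Subgroup G)
    (hPp : IsPGroup p P) (hP : ∀ v : G, IsPiEl π v → ∃ x ∈ P, IsConj x v)
    {n : G} (hn : n ∈ Subgroup.normalizer (P : Set G)) (hnc : n ∉ Subgroup.centralizer (P : Set G))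
    {r : ℕ} (hr : r.Prime) (hnr : n ^ r ∈ Subgroup.centralizer (P : Set G)) :
    r * p * kPi π G ≤ (p + (r - 1)) * Nat.card P := by
  have h1 := kPi_le_of_fib π P (P ⊓ Subgroup.centralizer ({n} : Set G)) inf_le_left hP r
    hr.pos (fun x hx hxD => fib_prime P hn hr hnr hx (fun h => hxD ⟨hx, h⟩))
  have h2 : p * Nat.card ↥(P ⊓ Subgroup.centralizer ({n} : Set G)) ≤ Nat.card P := by
    apply mul_card_le_of_lt hPp inf_le_left
    intro h
    apply hnc
    rw [Subgroup.mem_centralizer_iff]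
    intro x hx
    exact Subgroup.mem_centralizer_singleton_iff.1 (h hx).2
  calc r * p * kPi π G = p * (r * kPi π G) := by ring
    _ ≤ p * (Nat.card P + (r - 1) * Nat.card ↥(P ⊓ Subgroup.centralizer ({n} : Set G))) :=
        Nat.mul_le_mul_left _ h1
    _ = p * Nat.card P + (r - 1) * (p * Nat.card ↥(P ⊓ Subgroup.centralizer ({n} : Set G))) := by ring
    _ ≤ p * Nat.card P + (r - 1) * Nat.card P := Nat.add_le_add_left (Nat.mul_le_mul_left _ h2) _
    _ = (p + (r - 1)) * Nat.card P := by ring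

end Cfsg.Agent.H471.KPi
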